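import Cfsg.Agent.H453.OddM.Asm

/-!
# S4785: rows in `Type` give rows in every universe (exceptional groups)
-/

set_option autoImplicit false
open Cfsg

namespace Cfsg.Agent.H453.OddM

open Cfsg.Agent.OrdDiv Cfsg.Agent.H436

universe u

theorem named_congr {g : Grp} {T : Type u} [Group T] {X : Type} [Group X] (e : T ≃* X) (hT : IsNamed g T)
    (hr : Real g X) : IsNamed g X :=
  ⟨hr, hT.cond, by rw [← Nat.card_congr e.toEquiv]; exact hT.eq, by rw [← Nat.card_congr e.toEquiv]; exact hT.ord⟩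

theorem row_lift {g : Grp} (h0 : RowN.{0} g) {T : Type u} [Group T] [Finite T] [IsSimpleGroup T]
    {X : Type} [Group X] (e : T ≃* X) (hT : IsNamed g T) (hr : Real g X) : Row8 T := by
  have hf : Finite X := Finite.of_equiv T e.toEquiv
  have hs : IsSimpleGroup X := e.symm.isSimpleGroup
  exact (h0 X (named_congr e hT hr)).congr e.symm

theorem lift_g2 {q : ℕ} (h0 : RowN.{0} (.g2 q)) : RowN.{u} (.g2 q) := by
  intro T _ _ _ hT
  obtain ⟨F, i1, i2, hF, ⟨e⟩⟩ := hT.real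
  exact row_lift h0 e hT ⟨F, i1, i2, hF, ⟨MulEquiv.refl _⟩⟩

theorem lift_td4 {q : ℕ} (h0 : RowN.{0} (.td4 q)) : RowN.{u} (.td4 q) := by
  intro T _ _ _ hT
  obtain ⟨F, i1, i2, hF, ⟨e⟩⟩ := hT.real
  exact row_lift h0 e hT ⟨F, i1, i2, hF, ⟨MulEquiv.refl _⟩⟩

end Cfsg.Agent.H453.OddM
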