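import Cfsg.Agent.H453.OddM.UnM
import Cfsg.Agent.H453.OddM.Defs
import Cfsg.Agent.H251.GeoUMain
import Cfsg.Agent.H262.ElSympRes
import Cfsg.Agent.S2644

/-!
# TEAM ODDM (S4785): the residual class of `PSU_n(q)`, `n ≥ 3`, `q` odd, contains no subgroup which meets all real classes
-/

set_option autoImplicit false
set_option linter.unusedSectionVars false

namespace Cfsg.Agent.H453.OddM.Un

open Cfsg Module Cfsg.Geo Cfsg.Agent.LieClassical.HermBasic Cfsg.Agent.ClassicalGeometry.UnitTransv
open Cfsg.Agent.H453.OddM Cfsg.Agent.H251.GeoU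
open scoped Matrix MatrixGroups

variable {F : Type*} [Field F] [Fintype F] {n q : ℕ}

/-- the conclusion of the theorem on groups generated by transvections -/
def MainU (q n : ℕ) (F : Type*) [Field F] [Fintype F] : Prop :=
  ∀ H : Subgroup (GL (Fin n) F), Dat q H →
    (∀ (a : Fin n → F) (c : F), ho q a a = 0 → c + c ^ q = 0 → TM q H a c) ∨
      ∃ k : Subfield F, k ≠ ⊤ ∧ Geo.RealisableOver k (Geo.matrixSet (Nt q H))

theorem isTransvection_utv (hF : Fintype.card F = q ^ 2) {v : Fin n → F} {c : F} (hv : hermForm n F q v v = 0)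
    (hc : c + c ^ q = 0) (hv0 : v ≠ 0) (hc0 : c ≠ 0) :
    IsTransvection ((((utv hF v c hv hc : SU n F q) : GL (Fin n) F) : Matrix (Fin n) (Fin n) F)) := by
  have h1 : (((utv hF v c hv hc : SU n F q) : GL (Fin n) F) : Matrix (Fin n) (Fin n) F) - 1 =
      Matrix.vecMulVec (c • v) (fun j => v j ^ q) := by
    change unitaryTransvection n q v c - 1 = _
    rw [unitaryTransvection, add_sub_cancel_left, Matrix.smul_vecMulVec]
  constructor
  · rw [h1]
    refine le_antisymm (Matrix.rank_vecMulVec_le _ _) ?_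
    rw [Nat.one_le_iff_ne_zero]
    intro h0
    rw [Matrix.rank, Module.finrank_eq_zero_iff_of_free, Submodule.subsingleton_iff_eq_bot, LinearMap.range_eq_bot] at h0
    replace h0 : Matrix.vecMulVec (c • v) (fun j => v j ^ q) = 0 := by
      apply Matrix.toLin'.injective
      rw [map_zero]
      exact h0
    obtain ⟨i, hi⟩ := Function.ne_iff.1 hv0
    have h2 := congrFun (congrFun h0 i) i
    rw [Matrix.vecMulVec_apply, Pi.smul_apply, smul_eq_mul, Matrix.zero_apply] at h2
    rcases mul_eq_zero.1 h2 with h3 | h3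
    · rcases mul_eq_zero.1 h3 with h4 | h4
      · exact hc0 h4
      · exact hi h4
    · exact hi ((pow_q_eq_zero hF).1 h3)
  · rw [h1, Matrix.vecMulVec_mul_vecMulVec]
    have h2 : (fun j => v j ^ q) ⬝ᵥ (c • v) = 0 := by
      rw [dotProduct_smul, smul_eq_mul]
      have h3 : (fun j => v j ^ q) ⬝ᵥ v = hermForm n F q v v := by
        rw [herm_def, dotProduct]
        exact Finset.sum_congr rfl fun i _ => mul_comm _ _
      rw [h3, hv, mul_zero]
    rw [h2, zero_smul, Matrix.vecMulVec_zero]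

theorem coe_suHom_utv (hF : Fintype.card F = q ^ 2) {v : Fin n → F} {c : F} (hv : hermForm n F q v v = 0)
    (hc : c + c ^ q = 0) : H918.suHom n F q (utv hF v c hv hc) = tU q v c := by
  apply gl_ext
  intro x
  rw [ap_t hv]
  exact act_utv hF hv hc x

theorem utv_inv (hF : Fintype.card F = q ^ 2) {v : Fin n → F} {c : F} (hv : hermForm n F q v v = 0)
    (hc : c + c ^ q = 0) (hc' : -c + (-c) ^ q = 0) : (utv hF v c hv hc)⁻¹ = utv hF v (-c) hv hc' := by
  apply H918.suHom_injective
  rw [map_inv, coe_suHom_utv, coe_suHom_utv, t_neg hv]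

/-- transvections are real in `SU_n(q)`, `n ≥ 3` -/
theorem isReal_utv (hF : Fintype.card F = q ^ 2) (hn : 3 ≤ n) {v : Fin n → F} {c : F} (hv : hermForm n F q v v = 0)
    (hc : c + c ^ q = 0) (hv0 : v ≠ 0) (hc0 : c ≠ 0) : IsReal (utv hF v c hv hc) := by
  have hc' : -c + (-c) ^ q = 0 := by rw [neg_pow_q hF]; linear_combination -hc
  have h1 := S2644.result hF hn (utv hF v c hv hc) (utv hF v (-c) hv hc')
    (isTransvection_utv hF hv hc hv0 hc0) (isTransvection_utv hF hv hc' hv0 (neg_ne_zero.2 hc0))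
  obtain ⟨g, hg⟩ := isConj_iff.1 h1
  exact ⟨g, by rw [hg, utv_inv hF hv hc hc']⟩

theorem exists_iso (hF : Fintype.card F = q ^ 2) (hn : 2 ≤ n) : ∃ v : Fin n → F, v ≠ 0 ∧ hermForm n F q v v = 0 := by
  have h1 : (-1 : F) ^ q = -1 := by rw [neg_pow_q hF, one_pow]
  obtain ⟨θ, hθ0, hθ⟩ := exists_norm_eq_ne hF h1 (neg_ne_zero.2 one_ne_zero)
  have hne : (⟨0, by omega⟩ : Fin n) ≠ ⟨1, by omega⟩ := by
    intro h
    have := congrArg Fin.val h
    simp at this
  refine ⟨Pi.single ⟨0, by omega⟩ 1 + Pi.single ⟨1, by omega⟩ θ, ?_, ?_⟩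
  · intro h
    have h2 := congrFun h ⟨0, by omega⟩
    simp at h2
  · rw [herm_add_left, herm_add_right hF, herm_add_right hF, herm_single_left, herm_single_left, herm_single_left,
      herm_single_left, Pi.single_eq_same, Pi.single_eq_same, Pi.single_eq_of_ne hne, Pi.single_eq_of_ne hne.symm]
    rw [zero_pow_q hF, one_pow, mul_zero, mul_zero]
    linear_combination hθ

theorem iso_pre (M : Subgroup (PSU n F q)) : Iso q (pre M) := by
  rintro _ ⟨A, -, rfl⟩ u v
  exact herm_act A u v

theorem Nt_le {H : Subgroup (GL (Fin n) F)} : Nt q H ≤ H := by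
  rw [Nt, Subgroup.closure_le]
  rintro _ ⟨b, c, h, rfl⟩
  exact h.mem

theorem Nt_normal {H : Subgroup (GL (Fin n) F)} (hH : Iso q H) :
    ∀ h ∈ H, ∀ x ∈ Nt q H, h * x * h⁻¹ ∈ Nt q H := by
  intro h hh x hx
  rw [Nt] at hx
  induction hx using Subgroup.closure_induction with
  | mem t ht =>
    obtain ⟨b, c, hbc, rfl⟩ := ht
    exact Subgroup.subset_closure ⟨ap h b, c, hbc.conj hH hh, t_conj (hH h hh) hbc.iso c⟩
  | one => simp
  | mul x y _ _ hx hy =>
    have : h * (x * y) * h⁻¹ = (h * x * h⁻¹) * (h * y * h⁻¹) := by group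
    rw [this]
    exact (Nt q H).mul_mem hx hy
  | inv x _ hx =>
    have : h * x⁻¹ * h⁻¹ = (h * x * h⁻¹)⁻¹ := by group
    rw [this]
    exact (Nt q H).inv_mem hx

theorem tU_not_scalar (hF : Fintype.card F = q ^ 2) {b : Fin n → F} {c : F} (hb : b ≠ 0) (hc : c ≠ 0)
    (hbb : ho q b b = 0) : tU q b c ∉ scalars (Fin n) F := by
  intro h
  rw [mem_scalars_iff] at h
  obtain ⟨s, hs⟩ := h
  have hv : ∀ v, (s : F) • v = v + (c * ho q v b) • b := by
    intro v
    rw [← ap_t hbb, ap, hs, Matrix.smul_mulVec, Matrix.one_mulVec]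
  have h1 := hv b
  rw [hbb, mul_zero, zero_smul, add_zero] at h1
  have hs1 : (s : F) = 1 := by
    have : ((s : F) - 1) • b = 0 := by rw [sub_smul, one_smul, h1, sub_self]
    rcases smul_eq_zero.1 this with h2 | h2
    · exact sub_eq_zero.1 h2
    · exact absurd h2 hb
  obtain ⟨x, hx0⟩ : ∃ x, ho q x b ≠ 0 := by
    by_contra hcon
    push Not at hcon
    exact hb (eq_zero_of_ho_left hF hcon)
  have h2 := hv x
  rw [hs1, one_smul, left_eq_add] at h2
  rcases smul_eq_zero.1 h2 with h3 | h3
  · exact mul_ne_zero hc hx0 h3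
  · exact hb h3

/-- the hypotheses of the transvection theorem in the residual class -/
theorem dat_of_core (hF : Fintype.card F = q ^ 2) (h2 : (2 : F) ≠ 0) (hn : 3 ≤ n) {H : Subgroup (GL (Fin n) F)}
    (hH : Iso q H) {P : Subgroup (GL (Fin n) F)} (hP : IsResidualCore H P) {b : Fin n → F} {c : F} (hb : b ≠ 0)
    (hc : c ≠ 0) (hbc : TM q H b c) : Dat q H ∧ P ≤ Nt q H := by
  have hPN : P ≤ Nt q H := H262.El.core_le_of_normal hP Nt_le (Nt_normal hH) (fun hle =>
    tU_not_scalar hF hb hc hbc.iso (hle (Subgroup.subset_closure ⟨b, c, hbc, rfl⟩)))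
  refine ⟨?_, hPN⟩
  exact
    { card := hF
      le := hH
      two := h2
      dim := hn
      irr := by
        intro W hW
        apply hP.absIrred.1 W
        rintro _ ⟨x, hx, rfl⟩
        have hx' := hPN hx
        rw [Nt] at hx'
        have key : ∀ y ∈ Subgroup.closure {t | ∃ b c, TM q H b c ∧ t = tU q b c}, ∀ v ∈ W, ap y v ∈ W := by
          intro y hy
          induction hy using Subgroup.closure_induction with
          | mem t ht =>
            obtain ⟨b, c, hbc, rfl⟩ := ht
            exact hW b c hbc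
          | one => intro v hv; rwa [ap_one]
          | mul x y _ _ hx hy => intro v hv; rw [ap_mul]; exact hx _ (hy v hv)
          | inv x _ hx =>
            intro v hv
            have hk : ∀ k : ℕ, ap (x ^ k) v ∈ W := by
              intro k
              induction k with
              | zero => rwa [pow_zero, ap_one]
              | succ k ih =>
                rw [pow_succ', ap_mul]
                exact hx _ ih
            have h1 : x⁻¹ = x ^ (orderOf x - 1) := by
              symm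
              apply eq_inv_of_mul_eq_one_left
              rw [← pow_succ, Nat.sub_add_cancel (orderOf_pos x), pow_orderOf_eq_one]
            rw [h1]
            exact hk _
        rintro _ ⟨v, hv, rfl⟩
        exact key x hx' v hv
      ne := ⟨b, c, hb, hc, hbc⟩ }

/-- **The residual class of `PSU_n(q)`, `n ≥ 3`, `q` odd.** -/
theorem res_psu (hF : Fintype.card F = q ^ 2) (h2 : (2 : F) ≠ 0) (hn : 3 ≤ n) (hmain : MainU q n F)
    {M : Subgroup (PSU n F q)} (hM : M ≠ ⊤) (hc : Cov (PSU n F q) M) {P : Subgroup (GL (Fin n) F)}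
    (hP : IsResidualCore (pre M) P) : False := by
  have hH := iso_pre M
  -- a transvection in the preimage
  obtain ⟨v, hv0, hv⟩ := exists_iso hF (show 2 ≤ n by omega)
  obtain ⟨c, hc0, hct⟩ := exists_trace_zero_ne hF
  have hreal := isReal_utv hF hn hv hct hv0 hc0
  obtain ⟨g, hg⟩ := hc.2 _ (hreal.map (QuotientGroup.mk' (Subgroup.center (SU n F q))))
  obtain ⟨A, rfl⟩ := QuotientGroup.mk'_surjective _ g
  have hmem : H918.suHom n F q (A * utv hF v c hv hct * A⁻¹) ∈ pre M := by
    refine ⟨_, ?_, rfl⟩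
    rw [SetLike.mem_coe, Subgroup.mem_comap, map_mul, map_mul, map_inv]
    exact hg
  have hA : ∀ x y, ho q (ap (H918.suHom n F q A) x) (ap (H918.suHom n F q A) y) = ho q x y := fun x y => herm_act A x y
  have hbc : TM q (pre M) (ap (H918.suHom n F q A) v) c := by
    refine ⟨by rw [hA]; exact hv, hct, ?_⟩
    rw [map_mul, map_mul, map_inv, coe_suHom_utv, t_conj hA hv] at hmem
    exact hmem
  obtain ⟨D, hPN⟩ := dat_of_core hF h2 hn hH hP (ap_ne_zero hv0) hc0 hbc
  rcases hmain _ D with h | ⟨k, hk, B, hB⟩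
  · -- everything
    have h32 : ¬ (n = 3 ∧ q = 2) := by
      rintro ⟨-, rfl⟩
      apply h2
      have h3 := FiniteField.cast_card_eq_zero F
      rw [hF] at h3
      push_cast at h3
      have h4 : (2 : F) ^ 2 = 0 := by rw [← h3]; norm_num
      exact (pow_eq_zero_iff two_ne_zero).1 h4
    have h3 := H918.SUg_le_of_tv hF h32 (K := pre M) (fun v c hv hc => by
      have h4 := (h v c hv hc).mem
      rwa [← coe_suHom_utv hF hv hc] at h4)
    apply hM
    rw [eq_top_iff]
    intro x _
    obtain ⟨A, rfl⟩ := QuotientGroup.mk'_surjective _ x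
    obtain ⟨B, hB, hBA⟩ := h3 (H918.suHom_mem A)
    rw [← H918.suHom_injective hBA]
    exact hB
  · refine hP.no_subfield k hk ⟨B, ?_⟩
    rintro _ ⟨x, hx, rfl⟩
    exact hB _ ⟨x, hPN hx, rfl⟩

end Cfsg.Agent.H453.OddM.Un
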